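import Cfsg.Agent.Tri3.Coord
import Cfsg.Agent.Tri3.Tri

/-!
# The subgroup `H = 3³ : 2²` of `G`: fusion and centralizers
-/

set_option autoImplicit false

namespace Cfsg.Agent.Tri3

/-- coordinates on the subgroup `H` -/
structure Data {G : Type*} [Group G] (H : Subgroup G) where
  φ : Multiplicative A3 →* G
  e : Fin 4 → G
  memφ : ∀ v, φ v ∈ H
  meme : ∀ k, e k ∈ H
  e_zero : e 0 = 1
  cj : ∀ k (v : A3), e k * φ (Multiplicative.ofAdd v) * (e k)⁻¹ = φ (Multiplicative.ofAdd (sg k v))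
  sq : ∀ k, e k * e k = 1
  ex : ∀ h ∈ H, ∃ (v : A3) (k : Fin 4), h = φ (Multiplicative.ofAdd v) * e k

/-- the explicit group of permutations -/
abbrev H0 : Subgroup (Equiv.Perm (Fin 9)) :=
  Subgroup.closure ({Equiv.swap (0 : Fin 9) 1 * Equiv.swap 1 2, Equiv.swap (3 : Fin 9) 4 * Equiv.swap 4 5,
    Equiv.swap (6 : Fin 9) 7 * Equiv.swap 7 8,
    Equiv.swap (0 : Fin 9) 1 * Equiv.swap 3 4, Equiv.swap (0 : Fin 9) 1 * Equiv.swap 6 7} :
      Set (Equiv.Perm (Fin 9)))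

theorem exists_data {G : Type*} [Group G] (H : Subgroup G) (ψ : ↥H ≃* ↥H0) : Nonempty (Data H) := by
  let a : ↥H0 := ⟨Equiv.swap (0 : Fin 9) 1 * Equiv.swap 1 2, Subgroup.subset_closure (by simp)⟩
  let b : ↥H0 := ⟨Equiv.swap (3 : Fin 9) 4 * Equiv.swap 4 5, Subgroup.subset_closure (by simp)⟩
  let c : ↥H0 := ⟨Equiv.swap (6 : Fin 9) 7 * Equiv.swap 7 8, Subgroup.subset_closure (by simp)⟩
  let s : ↥H0 := ⟨Equiv.swap (0 : Fin 9) 1 * Equiv.swap 3 4, Subgroup.subset_closure (by simp)⟩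
  let t : ↥H0 := ⟨Equiv.swap (0 : Fin 9) 1 * Equiv.swap 6 7, Subgroup.subset_closure (by simp)⟩
  have ha : a ^ 3 = 1 := by
    apply Subtype.ext; change (Equiv.swap (0 : Fin 9) 1 * Equiv.swap 1 2) ^ 3 = 1; decide +kernel
  have hb : b ^ 3 = 1 := by
    apply Subtype.ext; change (Equiv.swap (3 : Fin 9) 4 * Equiv.swap 4 5) ^ 3 = 1; decide +kernel
  have hc : c ^ 3 = 1 := by
    apply Subtype.ext; change (Equiv.swap (6 : Fin 9) 7 * Equiv.swap 7 8) ^ 3 = 1; decide +kernel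
  have hab : a * b = b * a := by
    apply Subtype.ext
    change (Equiv.swap (0 : Fin 9) 1 * Equiv.swap 1 2) * (Equiv.swap (3 : Fin 9) 4 * Equiv.swap 4 5) =
      (Equiv.swap (3 : Fin 9) 4 * Equiv.swap 4 5) * (Equiv.swap (0 : Fin 9) 1 * Equiv.swap 1 2)
    decide +kernel
  have hac : a * c = c * a := by
    apply Subtype.ext
    change (Equiv.swap (0 : Fin 9) 1 * Equiv.swap 1 2) * (Equiv.swap (6 : Fin 9) 7 * Equiv.swap 7 8) =
      (Equiv.swap (6 : Fin 9) 7 * Equiv.swap 7 8) * (Equiv.swap (0 : Fin 9) 1 * Equiv.swap 1 2)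
    decide +kernel
  have hbc : b * c = c * b := by
    apply Subtype.ext
    change (Equiv.swap (3 : Fin 9) 4 * Equiv.swap 4 5) * (Equiv.swap (6 : Fin 9) 7 * Equiv.swap 7 8) =
      (Equiv.swap (6 : Fin 9) 7 * Equiv.swap 7 8) * (Equiv.swap (3 : Fin 9) 4 * Equiv.swap 4 5)
    decide +kernel
  have hs : s * s = 1 := by
    apply Subtype.ext
    change (Equiv.swap (0 : Fin 9) 1 * Equiv.swap 3 4) * (Equiv.swap (0 : Fin 9) 1 * Equiv.swap 3 4) = 1
    decide +kernel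
  have ht : t * t = 1 := by
    apply Subtype.ext
    change (Equiv.swap (0 : Fin 9) 1 * Equiv.swap 6 7) * (Equiv.swap (0 : Fin 9) 1 * Equiv.swap 6 7) = 1
    decide +kernel
  have hst : s * t = t * s := by
    apply Subtype.ext
    change (Equiv.swap (0 : Fin 9) 1 * Equiv.swap 3 4) * (Equiv.swap (0 : Fin 9) 1 * Equiv.swap 6 7) =
      (Equiv.swap (0 : Fin 9) 1 * Equiv.swap 6 7) * (Equiv.swap (0 : Fin 9) 1 * Equiv.swap 3 4)
    decide +kernel
  have sa : s * a * s⁻¹ = a⁻¹ := by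
    apply Subtype.ext
    change (Equiv.swap (0 : Fin 9) 1 * Equiv.swap 3 4) * (Equiv.swap (0 : Fin 9) 1 * Equiv.swap 1 2) *
      (Equiv.swap (0 : Fin 9) 1 * Equiv.swap 3 4)⁻¹ = (Equiv.swap (0 : Fin 9) 1 * Equiv.swap 1 2)⁻¹
    decide +kernel
  have sb : s * b * s⁻¹ = b⁻¹ := by
    apply Subtype.ext
    change (Equiv.swap (0 : Fin 9) 1 * Equiv.swap 3 4) * (Equiv.swap (3 : Fin 9) 4 * Equiv.swap 4 5) *
      (Equiv.swap (0 : Fin 9) 1 * Equiv.swap 3 4)⁻¹ = (Equiv.swap (3 : Fin 9) 4 * Equiv.swap 4 5)⁻¹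
    decide +kernel
  have sc : s * c * s⁻¹ = c := by
    apply Subtype.ext
    change (Equiv.swap (0 : Fin 9) 1 * Equiv.swap 3 4) * (Equiv.swap (6 : Fin 9) 7 * Equiv.swap 7 8) *
      (Equiv.swap (0 : Fin 9) 1 * Equiv.swap 3 4)⁻¹ = (Equiv.swap (6 : Fin 9) 7 * Equiv.swap 7 8)
    decide +kernel
  have ta : t * a * t⁻¹ = a⁻¹ := by
    apply Subtype.ext
    change (Equiv.swap (0 : Fin 9) 1 * Equiv.swap 6 7) * (Equiv.swap (0 : Fin 9) 1 * Equiv.swap 1 2) *
      (Equiv.swap (0 : Fin 9) 1 * Equiv.swap 6 7)⁻¹ = (Equiv.swap (0 : Fin 9) 1 * Equiv.swap 1 2)⁻¹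
    decide +kernel
  have tb : t * b * t⁻¹ = b := by
    apply Subtype.ext
    change (Equiv.swap (0 : Fin 9) 1 * Equiv.swap 6 7) * (Equiv.swap (3 : Fin 9) 4 * Equiv.swap 4 5) *
      (Equiv.swap (0 : Fin 9) 1 * Equiv.swap 6 7)⁻¹ = (Equiv.swap (3 : Fin 9) 4 * Equiv.swap 4 5)
    decide +kernel
  have tc : t * c * t⁻¹ = c⁻¹ := by
    apply Subtype.ext
    change (Equiv.swap (0 : Fin 9) 1 * Equiv.swap 6 7) * (Equiv.swap (6 : Fin 9) 7 * Equiv.swap 7 8) *
      (Equiv.swap (0 : Fin 9) 1 * Equiv.swap 6 7)⁻¹ = (Equiv.swap (6 : Fin 9) 7 * Equiv.swap 7 8)⁻¹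
    decide +kernel
  have htop : Subgroup.closure ({a, b, c, s, t} : Set ↥H0) = ⊤ := by
    have h := Subgroup.closure_closure_coe_preimage (k := ({Equiv.swap (0 : Fin 9) 1 * Equiv.swap 1 2, Equiv.swap (3 : Fin 9) 4 * Equiv.swap 4 5,
    Equiv.swap (6 : Fin 9) 7 * Equiv.swap 7 8,
    Equiv.swap (0 : Fin 9) 1 * Equiv.swap 3 4, Equiv.swap (0 : Fin 9) 1 * Equiv.swap 6 7} :
      Set (Equiv.Perm (Fin 9))))
    rw [← h]
    congr 1
    ext x
    simp only [Set.mem_insert_iff, Set.mem_singleton_iff, Set.mem_preimage, Subtype.ext_iff, a, b, c, s, t]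
  have hF := F_conj ha hb hc hab hac hbc sa sb sc ta tb tc
  have hex := exists_form ha hb hc hab hac hbc hs ht hst sa sb sc ta tb tc htop
  have hsq := E_sq hs ht hst
  let Φ : ↥H0 →* G := H.subtype.comp ψ.symm.toMonoidHom
  refine ⟨⟨Φ.comp (F ha hb hc hab hac hbc), fun k => Φ (E s t k), ?_, ?_, ?_, ?_, ?_, ?_⟩⟩
  · intro v; exact (ψ.symm (F ha hb hc hab hac hbc v)).2
  · intro k; exact (ψ.symm (E s t k)).2
  · exact map_one Φ
  · intro k v
    change Φ (E s t k) * Φ (F ha hb hc hab hac hbc (Multiplicative.ofAdd v)) * (Φ (E s t k))⁻¹ =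
      Φ (F ha hb hc hab hac hbc (Multiplicative.ofAdd (sg k v)))
    rw [← hF k v, map_mul, map_mul, map_inv]
  · intro k
    change Φ (E s t k) * Φ (E s t k) = 1
    rw [← map_mul, hsq, map_one]
  · intro h hh
    obtain ⟨v, k, hvk⟩ := hex (ψ ⟨h, hh⟩)
    refine ⟨v, k, ?_⟩
    change h = Φ (F ha hb hc hab hac hbc (Multiplicative.ofAdd v)) * Φ (E s t k)
    rw [← map_mul, ← hvk]
    change h = ((ψ.symm (ψ ⟨h, hh⟩) : ↥H) : G)
    rw [MulEquiv.symm_apply_apply]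

namespace Data

variable {G : Type*} [Group G] {H : Subgroup G} (D : Data H)

/-- element of `T` with given coordinates -/
def f (v : A3) : G := D.φ (Multiplicative.ofAdd v)

theorem f_add (v w : A3) : D.f (v + w) = D.f v * D.f w := by
  unfold f; rw [ofAdd_add, map_mul]

theorem f_zero : D.f 0 = 1 := by unfold f; rw [ofAdd_zero, map_one]

theorem f_neg (v : A3) : D.f (-v) = (D.f v)⁻¹ := by unfold f; rw [ofAdd_neg, map_inv]

theorem f_cube (v : A3) : D.f v ^ 3 = 1 := by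
  have : v + v + v = 0 := by revert v; decide
  rw [pow_succ, pow_two, ← f_add, ← f_add, this, f_zero]

theorem f_conj (k : Fin 4) (v : A3) : D.e k * D.f v * (D.e k)⁻¹ = D.f (sg k v) := D.cj k v

theorem sq_mem (h : G) (hh : h ∈ H) : h * h ∈ D.φ.range := by
  obtain ⟨v, k, rfl⟩ := D.ex h hh
  have : D.φ (Multiplicative.ofAdd v) * D.e k * (D.φ (Multiplicative.ofAdd v) * D.e k) =
      D.φ (Multiplicative.ofAdd v) * (D.e k * D.φ (Multiplicative.ofAdd v) * (D.e k)⁻¹) * (D.e k * D.e k) := by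
    group
  rw [this, D.cj, D.sq, mul_one, ← map_mul]
  exact ⟨_, rfl⟩

theorem mem_range_of_pow {h : G} (hh : h ∈ H) (hp : h ^ 27 = 1) : h ∈ D.φ.range := by
  have h1 : h = (h * h) ^ 14 := by
    calc h = h ^ 27 * h := by rw [hp, one_mul]
      _ = (h * h) ^ 14 := by rw [← pow_two, ← pow_mul, ← pow_succ]
  rw [h1]
  exact Subgroup.pow_mem _ (D.sq_mem h hh) _

theorem range_eq [Finite G] {T : Subgroup G} (hTH : T ≤ H) (hT : Nat.card T = 27) :
    D.φ.range = T ∧ Function.Injective D.φ := by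
  have hle : T ≤ D.φ.range := by
    intro u hu
    apply D.mem_range_of_pow (hTH hu)
    have := pow_card_eq_one' (x := (⟨u, hu⟩ : T))
    rw [hT] at this
    exact congrArg Subtype.val this
  have hcA : Nat.card (Multiplicative A3) = 27 := by
    change Nat.card A3 = 27
    simp [Nat.card_eq_fintype_card, ZMod.card]
  have h1 : Nat.card D.φ.range ≤ 27 := by
    rw [← hcA]
    exact Nat.card_le_card_of_surjective (D.φ.rangeRestrict) D.φ.rangeRestrict_surjective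
  have h2 : D.φ.range = T := by
    symm
    apply Subgroup.eq_of_le_of_card_ge hle
    rw [hT]; exact h1
  refine ⟨h2, ?_⟩
  have h3 : Nat.card D.φ.range = Nat.card (Multiplicative A3) := by rw [h2, hT, hcA]
  have h4 : Function.Bijective D.φ.rangeRestrict :=
    (Nat.bijective_iff_surjective_and_card _).2 ⟨D.φ.rangeRestrict_surjective, h3.symm⟩
  intro x y hxy
  exact h4.1 (Subtype.ext hxy)

end Data

end Cfsg.Agent.Tri3
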