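import Cfsg.Agent.Tri3.Mult
import Cfsg.Agent.Tri3.Coord

/-!
# Explicit character sums over `A3`
-/

set_option autoImplicit false
set_option maxHeartbeats 1000000

open scoped ComplexConjugate

namespace Cfsg.Agent.Tri3

/-- the dot product -/
def dot3 (w : A3) : A3 →+ ZMod 3 where
  toFun v := w.1 * v.1 + w.2.1 * v.2.1 + w.2.2 * v.2.2
  map_zero' := by simp
  map_add' a b := by simp only [Prod.fst_add, Prod.snd_add]; ring

theorem sum_zmod3 (f : ZMod 3 → ℂ) : ∑ x, f x = f 0 + f 1 + f 2 := Fin.sum_univ_three f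

theorem vals27 {F : A3 → ℂ} (hF : ∀ k v, F (sg k v) = F v) :
    F (0, 0, 2) = F (0, 0, 1) ∧
    F (0, 1, 2) = F (0, 1, 1) ∧
    F (0, 2, 0) = F (0, 1, 0) ∧
    F (0, 2, 1) = F (0, 1, 1) ∧
    F (0, 2, 2) = F (0, 1, 1) ∧
    F (1, 0, 2) = F (1, 0, 1) ∧
    F (1, 1, 2) = F (2, 2, 2) ∧
    F (1, 2, 0) = F (1, 1, 0) ∧
    F (1, 2, 1) = F (2, 2, 2) ∧
    F (1, 2, 2) = F (1, 1, 1) ∧
    F (2, 0, 0) = F (1, 0, 0) ∧
    F (2, 0, 1) = F (1, 0, 1) ∧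
    F (2, 0, 2) = F (1, 0, 1) ∧
    F (2, 1, 0) = F (1, 1, 0) ∧
    F (2, 1, 1) = F (2, 2, 2) ∧
    F (2, 1, 2) = F (1, 1, 1) ∧
    F (2, 2, 0) = F (1, 1, 0) ∧
    F (2, 2, 1) = F (1, 1, 1) := by
  refine ⟨?_, ?_, ?_, ?_, ?_, ?_, ?_, ?_, ?_, ?_, ?_, ?_, ?_, ?_, ?_, ?_, ?_, ?_⟩
  · rw [← hF 2 (0, 0, 1)]; congr 1
  · rw [← hF 2 (0, 1, 1)]; congr 1
  · rw [← hF 1 (0, 1, 0)]; congr 1
  · rw [← hF 1 (0, 1, 1)]; congr 1
  · rw [← hF 3 (0, 1, 1)]; congr 1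
  · rw [← hF 3 (1, 0, 1)]; congr 1
  · rw [← hF 1 (2, 2, 2)]; congr 1
  · rw [← hF 3 (1, 1, 0)]; congr 1
  · rw [← hF 2 (2, 2, 2)]; congr 1
  · rw [← hF 3 (1, 1, 1)]; congr 1
  · rw [← hF 1 (1, 0, 0)]; congr 1
  · rw [← hF 1 (1, 0, 1)]; congr 1
  · rw [← hF 2 (1, 0, 1)]; congr 1
  · rw [← hF 2 (1, 1, 0)]; congr 1
  · rw [← hF 3 (2, 2, 2)]; congr 1
  · rw [← hF 2 (1, 1, 1)]; congr 1
  · rw [← hF 1 (1, 1, 0)]; congr 1
  · rw [← hF 1 (1, 1, 1)]; congr 1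

theorem sum_000 {F : A3 → ℂ} (hF : ∀ k v, F (sg k v) = F v) :
    ∑ v : A3, F v * e3 (-(dot3 (0, 0, 0) v)) =
      (1 + 0 * om + 0 * (-1 - om)) * F (0, 0, 0) +
      (2 + 0 * om + 0 * (-1 - om)) * F (1, 0, 0) +
      (2 + 0 * om + 0 * (-1 - om)) * F (0, 1, 0) +
      (2 + 0 * om + 0 * (-1 - om)) * F (0, 0, 1) +
      (4 + 0 * om + 0 * (-1 - om)) * F (0, 1, 1) +
      (4 + 0 * om + 0 * (-1 - om)) * F (1, 0, 1) +
      (4 + 0 * om + 0 * (-1 - om)) * F (1, 1, 0) +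
      (4 + 0 * om + 0 * (-1 - om)) * F (1, 1, 1) +
      (4 + 0 * om + 0 * (-1 - om)) * F (2, 2, 2) := by
  obtain ⟨e002, e012, e020, e021, e022, e102, e112, e120, e121, e122, e200, e201, e202, e210, e211, e212, e220, e221⟩ := vals27 hF
  have h000 : -(dot3 (0, 0, 0) (0, 0, 0)) = (0 : ZMod 3) := by decide
  have h001 : -(dot3 (0, 0, 0) (0, 0, 1)) = (0 : ZMod 3) := by decide
  have h002 : -(dot3 (0, 0, 0) (0, 0, 2)) = (0 : ZMod 3) := by decide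
  have h010 : -(dot3 (0, 0, 0) (0, 1, 0)) = (0 : ZMod 3) := by decide
  have h011 : -(dot3 (0, 0, 0) (0, 1, 1)) = (0 : ZMod 3) := by decide
  have h012 : -(dot3 (0, 0, 0) (0, 1, 2)) = (0 : ZMod 3) := by decide
  have h020 : -(dot3 (0, 0, 0) (0, 2, 0)) = (0 : ZMod 3) := by decide
  have h021 : -(dot3 (0, 0, 0) (0, 2, 1)) = (0 : ZMod 3) := by decide
  have h022 : -(dot3 (0, 0, 0) (0, 2, 2)) = (0 : ZMod 3) := by decide
  have h100 : -(dot3 (0, 0, 0) (1, 0, 0)) = (0 : ZMod 3) := by decide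
  have h101 : -(dot3 (0, 0, 0) (1, 0, 1)) = (0 : ZMod 3) := by decide
  have h102 : -(dot3 (0, 0, 0) (1, 0, 2)) = (0 : ZMod 3) := by decide
  have h110 : -(dot3 (0, 0, 0) (1, 1, 0)) = (0 : ZMod 3) := by decide
  have h111 : -(dot3 (0, 0, 0) (1, 1, 1)) = (0 : ZMod 3) := by decide
  have h112 : -(dot3 (0, 0, 0) (1, 1, 2)) = (0 : ZMod 3) := by decide
  have h120 : -(dot3 (0, 0, 0) (1, 2, 0)) = (0 : ZMod 3) := by decide
  have h121 : -(dot3 (0, 0, 0) (1, 2, 1)) = (0 : ZMod 3) := by decide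
  have h122 : -(dot3 (0, 0, 0) (1, 2, 2)) = (0 : ZMod 3) := by decide
  have h200 : -(dot3 (0, 0, 0) (2, 0, 0)) = (0 : ZMod 3) := by decide
  have h201 : -(dot3 (0, 0, 0) (2, 0, 1)) = (0 : ZMod 3) := by decide
  have h202 : -(dot3 (0, 0, 0) (2, 0, 2)) = (0 : ZMod 3) := by decide
  have h210 : -(dot3 (0, 0, 0) (2, 1, 0)) = (0 : ZMod 3) := by decide
  have h211 : -(dot3 (0, 0, 0) (2, 1, 1)) = (0 : ZMod 3) := by decide
  have h212 : -(dot3 (0, 0, 0) (2, 1, 2)) = (0 : ZMod 3) := by decide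
  have h220 : -(dot3 (0, 0, 0) (2, 2, 0)) = (0 : ZMod 3) := by decide
  have h221 : -(dot3 (0, 0, 0) (2, 2, 1)) = (0 : ZMod 3) := by decide
  have h222 : -(dot3 (0, 0, 0) (2, 2, 2)) = (0 : ZMod 3) := by decide
  simp only [Fintype.sum_prod_type, sum_zmod3]
  simp only [h000, h001, h002, h010, h011, h012, h020, h021, h022, h100, h101, h102, h110, h111, h112, h120, h121, h122, h200, h201, h202, h210, h211, h212, h220, h221, h222, e3_zero, e3_one, e3_two, e002, e012, e020, e021, e022, e102, e112, e120, e121, e122, e200, e201, e202, e210, e211, e212, e220, e221]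
  ring

theorem sum_011 {F : A3 → ℂ} (hF : ∀ k v, F (sg k v) = F v) :
    ∑ v : A3, F v * e3 (-(dot3 (0, 1, 1) v)) =
      (1 + 0 * om + 0 * (-1 - om)) * F (0, 0, 0) +
      (2 + 0 * om + 0 * (-1 - om)) * F (1, 0, 0) +
      (0 + 1 * om + 1 * (-1 - om)) * F (0, 1, 0) +
      (0 + 1 * om + 1 * (-1 - om)) * F (0, 0, 1) +
      (2 + 1 * om + 1 * (-1 - om)) * F (0, 1, 1) +
      (0 + 2 * om + 2 * (-1 - om)) * F (1, 0, 1) +
      (0 + 2 * om + 2 * (-1 - om)) * F (1, 1, 0) +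
      (2 + 1 * om + 1 * (-1 - om)) * F (1, 1, 1) +
      (2 + 1 * om + 1 * (-1 - om)) * F (2, 2, 2) := by
  obtain ⟨e002, e012, e020, e021, e022, e102, e112, e120, e121, e122, e200, e201, e202, e210, e211, e212, e220, e221⟩ := vals27 hF
  have h000 : -(dot3 (0, 1, 1) (0, 0, 0)) = (0 : ZMod 3) := by decide
  have h001 : -(dot3 (0, 1, 1) (0, 0, 1)) = (2 : ZMod 3) := by decide
  have h002 : -(dot3 (0, 1, 1) (0, 0, 2)) = (1 : ZMod 3) := by decide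
  have h010 : -(dot3 (0, 1, 1) (0, 1, 0)) = (2 : ZMod 3) := by decide
  have h011 : -(dot3 (0, 1, 1) (0, 1, 1)) = (1 : ZMod 3) := by decide
  have h012 : -(dot3 (0, 1, 1) (0, 1, 2)) = (0 : ZMod 3) := by decide
  have h020 : -(dot3 (0, 1, 1) (0, 2, 0)) = (1 : ZMod 3) := by decide
  have h021 : -(dot3 (0, 1, 1) (0, 2, 1)) = (0 : ZMod 3) := by decide
  have h022 : -(dot3 (0, 1, 1) (0, 2, 2)) = (2 : ZMod 3) := by decide
  have h100 : -(dot3 (0, 1, 1) (1, 0, 0)) = (0 : ZMod 3) := by decide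
  have h101 : -(dot3 (0, 1, 1) (1, 0, 1)) = (2 : ZMod 3) := by decide
  have h102 : -(dot3 (0, 1, 1) (1, 0, 2)) = (1 : ZMod 3) := by decide
  have h110 : -(dot3 (0, 1, 1) (1, 1, 0)) = (2 : ZMod 3) := by decide
  have h111 : -(dot3 (0, 1, 1) (1, 1, 1)) = (1 : ZMod 3) := by decide
  have h112 : -(dot3 (0, 1, 1) (1, 1, 2)) = (0 : ZMod 3) := by decide
  have h120 : -(dot3 (0, 1, 1) (1, 2, 0)) = (1 : ZMod 3) := by decide
  have h121 : -(dot3 (0, 1, 1) (1, 2, 1)) = (0 : ZMod 3) := by decide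
  have h122 : -(dot3 (0, 1, 1) (1, 2, 2)) = (2 : ZMod 3) := by decide
  have h200 : -(dot3 (0, 1, 1) (2, 0, 0)) = (0 : ZMod 3) := by decide
  have h201 : -(dot3 (0, 1, 1) (2, 0, 1)) = (2 : ZMod 3) := by decide
  have h202 : -(dot3 (0, 1, 1) (2, 0, 2)) = (1 : ZMod 3) := by decide
  have h210 : -(dot3 (0, 1, 1) (2, 1, 0)) = (2 : ZMod 3) := by decide
  have h211 : -(dot3 (0, 1, 1) (2, 1, 1)) = (1 : ZMod 3) := by decide
  have h212 : -(dot3 (0, 1, 1) (2, 1, 2)) = (0 : ZMod 3) := by decide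
  have h220 : -(dot3 (0, 1, 1) (2, 2, 0)) = (1 : ZMod 3) := by decide
  have h221 : -(dot3 (0, 1, 1) (2, 2, 1)) = (0 : ZMod 3) := by decide
  have h222 : -(dot3 (0, 1, 1) (2, 2, 2)) = (2 : ZMod 3) := by decide
  simp only [Fintype.sum_prod_type, sum_zmod3]
  simp only [h000, h001, h002, h010, h011, h012, h020, h021, h022, h100, h101, h102, h110, h111, h112, h120, h121, h122, h200, h201, h202, h210, h211, h212, h220, h221, h222, e3_zero, e3_one, e3_two, e002, e012, e020, e021, e022, e102, e112, e120, e121, e122, e200, e201, e202, e210, e211, e212, e220, e221]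
  ring

theorem sum_111 {F : A3 → ℂ} (hF : ∀ k v, F (sg k v) = F v) :
    ∑ v : A3, F v * e3 (-(dot3 (1, 1, 1) v)) =
      (1 + 0 * om + 0 * (-1 - om)) * F (0, 0, 0) +
      (0 + 1 * om + 1 * (-1 - om)) * F (1, 0, 0) +
      (0 + 1 * om + 1 * (-1 - om)) * F (0, 1, 0) +
      (0 + 1 * om + 1 * (-1 - om)) * F (0, 0, 1) +
      (2 + 1 * om + 1 * (-1 - om)) * F (0, 1, 1) +
      (2 + 1 * om + 1 * (-1 - om)) * F (1, 0, 1) +
      (2 + 1 * om + 1 * (-1 - om)) * F (1, 1, 0) +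
      (1 + 3 * om + 0 * (-1 - om)) * F (1, 1, 1) +
      (1 + 0 * om + 3 * (-1 - om)) * F (2, 2, 2) := by
  obtain ⟨e002, e012, e020, e021, e022, e102, e112, e120, e121, e122, e200, e201, e202, e210, e211, e212, e220, e221⟩ := vals27 hF
  have h000 : -(dot3 (1, 1, 1) (0, 0, 0)) = (0 : ZMod 3) := by decide
  have h001 : -(dot3 (1, 1, 1) (0, 0, 1)) = (2 : ZMod 3) := by decide
  have h002 : -(dot3 (1, 1, 1) (0, 0, 2)) = (1 : ZMod 3) := by decide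
  have h010 : -(dot3 (1, 1, 1) (0, 1, 0)) = (2 : ZMod 3) := by decide
  have h011 : -(dot3 (1, 1, 1) (0, 1, 1)) = (1 : ZMod 3) := by decide
  have h012 : -(dot3 (1, 1, 1) (0, 1, 2)) = (0 : ZMod 3) := by decide
  have h020 : -(dot3 (1, 1, 1) (0, 2, 0)) = (1 : ZMod 3) := by decide
  have h021 : -(dot3 (1, 1, 1) (0, 2, 1)) = (0 : ZMod 3) := by decide
  have h022 : -(dot3 (1, 1, 1) (0, 2, 2)) = (2 : ZMod 3) := by decide
  have h100 : -(dot3 (1, 1, 1) (1, 0, 0)) = (2 : ZMod 3) := by decide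
  have h101 : -(dot3 (1, 1, 1) (1, 0, 1)) = (1 : ZMod 3) := by decide
  have h102 : -(dot3 (1, 1, 1) (1, 0, 2)) = (0 : ZMod 3) := by decide
  have h110 : -(dot3 (1, 1, 1) (1, 1, 0)) = (1 : ZMod 3) := by decide
  have h111 : -(dot3 (1, 1, 1) (1, 1, 1)) = (0 : ZMod 3) := by decide
  have h112 : -(dot3 (1, 1, 1) (1, 1, 2)) = (2 : ZMod 3) := by decide
  have h120 : -(dot3 (1, 1, 1) (1, 2, 0)) = (0 : ZMod 3) := by decide
  have h121 : -(dot3 (1, 1, 1) (1, 2, 1)) = (2 : ZMod 3) := by decide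
  have h122 : -(dot3 (1, 1, 1) (1, 2, 2)) = (1 : ZMod 3) := by decide
  have h200 : -(dot3 (1, 1, 1) (2, 0, 0)) = (1 : ZMod 3) := by decide
  have h201 : -(dot3 (1, 1, 1) (2, 0, 1)) = (0 : ZMod 3) := by decide
  have h202 : -(dot3 (1, 1, 1) (2, 0, 2)) = (2 : ZMod 3) := by decide
  have h210 : -(dot3 (1, 1, 1) (2, 1, 0)) = (0 : ZMod 3) := by decide
  have h211 : -(dot3 (1, 1, 1) (2, 1, 1)) = (2 : ZMod 3) := by decide
  have h212 : -(dot3 (1, 1, 1) (2, 1, 2)) = (1 : ZMod 3) := by decide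
  have h220 : -(dot3 (1, 1, 1) (2, 2, 0)) = (2 : ZMod 3) := by decide
  have h221 : -(dot3 (1, 1, 1) (2, 2, 1)) = (1 : ZMod 3) := by decide
  have h222 : -(dot3 (1, 1, 1) (2, 2, 2)) = (0 : ZMod 3) := by decide
  simp only [Fintype.sum_prod_type, sum_zmod3]
  simp only [h000, h001, h002, h010, h011, h012, h020, h021, h022, h100, h101, h102, h110, h111, h112, h120, h121, h122, h200, h201, h202, h210, h211, h212, h220, h221, h222, e3_zero, e3_one, e3_two, e002, e012, e020, e021, e022, e102, e112, e120, e121, e122, e200, e201, e202, e210, e211, e212, e220, e221]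
  ring

theorem sum_222 {F : A3 → ℂ} (hF : ∀ k v, F (sg k v) = F v) :
    ∑ v : A3, F v * e3 (-(dot3 (2, 2, 2) v)) =
      (1 + 0 * om + 0 * (-1 - om)) * F (0, 0, 0) +
      (0 + 1 * om + 1 * (-1 - om)) * F (1, 0, 0) +
      (0 + 1 * om + 1 * (-1 - om)) * F (0, 1, 0) +
      (0 + 1 * om + 1 * (-1 - om)) * F (0, 0, 1) +
      (2 + 1 * om + 1 * (-1 - om)) * F (0, 1, 1) +
      (2 + 1 * om + 1 * (-1 - om)) * F (1, 0, 1) +
      (2 + 1 * om + 1 * (-1 - om)) * F (1, 1, 0) +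
      (1 + 0 * om + 3 * (-1 - om)) * F (1, 1, 1) +
      (1 + 3 * om + 0 * (-1 - om)) * F (2, 2, 2) := by
  obtain ⟨e002, e012, e020, e021, e022, e102, e112, e120, e121, e122, e200, e201, e202, e210, e211, e212, e220, e221⟩ := vals27 hF
  have h000 : -(dot3 (2, 2, 2) (0, 0, 0)) = (0 : ZMod 3) := by decide
  have h001 : -(dot3 (2, 2, 2) (0, 0, 1)) = (1 : ZMod 3) := by decide
  have h002 : -(dot3 (2, 2, 2) (0, 0, 2)) = (2 : ZMod 3) := by decide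
  have h010 : -(dot3 (2, 2, 2) (0, 1, 0)) = (1 : ZMod 3) := by decide
  have h011 : -(dot3 (2, 2, 2) (0, 1, 1)) = (2 : ZMod 3) := by decide
  have h012 : -(dot3 (2, 2, 2) (0, 1, 2)) = (0 : ZMod 3) := by decide
  have h020 : -(dot3 (2, 2, 2) (0, 2, 0)) = (2 : ZMod 3) := by decide
  have h021 : -(dot3 (2, 2, 2) (0, 2, 1)) = (0 : ZMod 3) := by decide
  have h022 : -(dot3 (2, 2, 2) (0, 2, 2)) = (1 : ZMod 3) := by decide
  have h100 : -(dot3 (2, 2, 2) (1, 0, 0)) = (1 : ZMod 3) := by decide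
  have h101 : -(dot3 (2, 2, 2) (1, 0, 1)) = (2 : ZMod 3) := by decide
  have h102 : -(dot3 (2, 2, 2) (1, 0, 2)) = (0 : ZMod 3) := by decide
  have h110 : -(dot3 (2, 2, 2) (1, 1, 0)) = (2 : ZMod 3) := by decide
  have h111 : -(dot3 (2, 2, 2) (1, 1, 1)) = (0 : ZMod 3) := by decide
  have h112 : -(dot3 (2, 2, 2) (1, 1, 2)) = (1 : ZMod 3) := by decide
  have h120 : -(dot3 (2, 2, 2) (1, 2, 0)) = (0 : ZMod 3) := by decide
  have h121 : -(dot3 (2, 2, 2) (1, 2, 1)) = (1 : ZMod 3) := by decide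
  have h122 : -(dot3 (2, 2, 2) (1, 2, 2)) = (2 : ZMod 3) := by decide
  have h200 : -(dot3 (2, 2, 2) (2, 0, 0)) = (2 : ZMod 3) := by decide
  have h201 : -(dot3 (2, 2, 2) (2, 0, 1)) = (0 : ZMod 3) := by decide
  have h202 : -(dot3 (2, 2, 2) (2, 0, 2)) = (1 : ZMod 3) := by decide
  have h210 : -(dot3 (2, 2, 2) (2, 1, 0)) = (0 : ZMod 3) := by decide
  have h211 : -(dot3 (2, 2, 2) (2, 1, 1)) = (1 : ZMod 3) := by decide
  have h212 : -(dot3 (2, 2, 2) (2, 1, 2)) = (2 : ZMod 3) := by decide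
  have h220 : -(dot3 (2, 2, 2) (2, 2, 0)) = (1 : ZMod 3) := by decide
  have h221 : -(dot3 (2, 2, 2) (2, 2, 1)) = (2 : ZMod 3) := by decide
  have h222 : -(dot3 (2, 2, 2) (2, 2, 2)) = (0 : ZMod 3) := by decide
  simp only [Fintype.sum_prod_type, sum_zmod3]
  simp only [h000, h001, h002, h010, h011, h012, h020, h021, h022, h100, h101, h102, h110, h111, h112, h120, h121, h122, h200, h201, h202, h210, h211, h212, h220, h221, h222, e3_zero, e3_one, e3_two, e002, e012, e020, e021, e022, e102, e112, e120, e121, e122, e200, e201, e202, e210, e211, e212, e220, e221]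
  ring

end Cfsg.Agent.Tri3
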