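import Cfsg.Agent.Tri3.Const
import Cfsg.Agent.Tri3.Sum27

/-!
# Groups with a TI subgroup `3³` with normalizer `3³ : 2²` have order 108
-/

set_option autoImplicit false
set_option maxHeartbeats 1000000
set_option linter.unusedSectionVars false

open scoped ComplexConjugate
open Cfsg Cfsg.Agent.CharBase

namespace Cfsg.Agent.Tri3

section

variable {G : Type*} [Group G] {H : Subgroup G} {A I : Type*} [AddCommGroup A] {sg : I → A → A} (D : TI H sg)

theorem TI.conj_char [Finite G] (χ : IrrCharacter G) (v : A) :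
    conj ((χ : G → ℂ) (D.f v)) = (χ : G → ℂ) (D.f (-v)) := by rw [D.f_neg, irr_inv]

theorem TI.char_sg (χ : IrrCharacter G) (i : I) (v : A) :
    (χ : G → ℂ) (D.f (sg i v)) = (χ : G → ℂ) (D.f v) := by
  symm
  apply classFun_eq_of_isConj (irr_isClassFunction χ)
  rw [isConj_iff]
  exact ⟨D.e i, D.f_conj i v⟩

/-- the multiplicities -/
theorem TI.mult [Finite G] [Fintype A] (χ : IrrCharacter G) (l : A →+ ZMod 3) :
    ∃ n : ℕ, ∑ v : A, (χ : G → ℂ) (D.f v) * e3 (-(l v)) = (Nat.card A : ℂ) * n :=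
  exists_mult D.φ l (irr_isCharacter χ)

end

theorem card_A3 : Nat.card A3 = 27 := by simp [Nat.card_eq_fintype_card, ZMod.card]

section

variable {G : Type*} [Group G] [Finite G] {H : Subgroup G} (D : TI H sg)

theorem cen_a1 : Nat.card (Subgroup.centralizer ({D.f (1, 0, 0)} : Set G)) = 54 := by
  rw [D.card_centralizer (by decide), card_A3, Nat.card_eq_fintype_card]; decide +kernel
theorem cen_a2 : Nat.card (Subgroup.centralizer ({D.f (0, 1, 0)} : Set G)) = 54 := by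
  rw [D.card_centralizer (by decide), card_A3, Nat.card_eq_fintype_card]; decide +kernel
theorem cen_a3 : Nat.card (Subgroup.centralizer ({D.f (0, 0, 1)} : Set G)) = 54 := by
  rw [D.card_centralizer (by decide), card_A3, Nat.card_eq_fintype_card]; decide +kernel
theorem cen_b1 : Nat.card (Subgroup.centralizer ({D.f (0, 1, 1)} : Set G)) = 27 := by
  rw [D.card_centralizer (by decide), card_A3, Nat.card_eq_fintype_card]; decide +kernel
theorem cen_b2 : Nat.card (Subgroup.centralizer ({D.f (1, 0, 1)} : Set G)) = 27 := by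
  rw [D.card_centralizer (by decide), card_A3, Nat.card_eq_fintype_card]; decide +kernel
theorem cen_b3 : Nat.card (Subgroup.centralizer ({D.f (1, 1, 0)} : Set G)) = 27 := by
  rw [D.card_centralizer (by decide), card_A3, Nat.card_eq_fintype_card]; decide +kernel
theorem cen_c : Nat.card (Subgroup.centralizer ({D.f (1, 1, 1)} : Set G)) = 27 := by
  rw [D.card_centralizer (by decide), card_A3, Nat.card_eq_fintype_card]; decide +kernel

/-- The multiplicities and the invariant `n`. -/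
theorem exists_n (χ : IrrCharacter G) : ∃ n : ℤ,
    (χ : G → ℂ) (D.f (1, 1, 1)) - (χ : G → ℂ) (D.f (2, 2, 2)) = -3 * (1 + 2 * om) * n ∧
    ∃ m0 m1 m2 m3 : ℕ, n = m2 - m3 ∧
      ∑ v : A3, (χ : G → ℂ) (D.f v) * e3 (-(dot3 (0, 0, 0) v)) = 27 * m0 ∧
      ∑ v : A3, (χ : G → ℂ) (D.f v) * e3 (-(dot3 (0, 1, 1) v)) = 27 * m1 ∧
      ∑ v : A3, (χ : G → ℂ) (D.f v) * e3 (-(dot3 (1, 1, 1) v)) = 27 * m2 ∧
      ∑ v : A3, (χ : G → ℂ) (D.f v) * e3 (-(dot3 (2, 2, 2) v)) = 27 * m3 := by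
  obtain ⟨m0, h0⟩ := D.mult χ (dot3 (0, 0, 0))
  obtain ⟨m1, h1⟩ := D.mult χ (dot3 (0, 1, 1))
  obtain ⟨m2, h2⟩ := D.mult χ (dot3 (1, 1, 1))
  obtain ⟨m3, h3⟩ := D.mult χ (dot3 (2, 2, 2))
  rw [card_A3] at h0 h1 h2 h3
  push_cast at h0 h1 h2 h3
  refine ⟨m2 - m3, ?_, m0, m1, m2, m3, rfl, h0, h1, h2, h3⟩
  have hF : ∀ k v, (fun v => (χ : G → ℂ) (D.f v)) (sg k v) = (fun v => (χ : G → ℂ) (D.f v)) v :=
    fun k v => D.char_sg χ k v
  rw [sum_111 hF] at h2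
  rw [sum_222 hF] at h3
  have hr := om_rel
  have e : 9 * ((m2 : ℂ) - m3) = (1 + 2 * om) * ((χ : G → ℂ) (D.f (1, 1, 1)) - (χ : G → ℂ) (D.f (2, 2, 2))) := by
    linear_combination (-1 / 3) * h2 + (1 / 3) * h3
  push_cast
  have hsq : (1 + 2 * om) ^ 2 = -3 := by linear_combination 4 * hr
  linear_combination (1 + 2 * om) * e / 3 + ((χ : G → ℂ) (D.f (1, 1, 1)) - (χ : G → ℂ) (D.f (2, 2, 2))) * hsq / 3

theorem conj_c (χ : IrrCharacter G) : conj ((χ : G → ℂ) (D.f (1, 1, 1))) = (χ : G → ℂ) (D.f (2, 2, 2)) := by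
  rw [D.conj_char]; congr 1

theorem conj_c' (χ : IrrCharacter G) : conj ((χ : G → ℂ) (D.f (2, 2, 2))) = (χ : G → ℂ) (D.f (1, 1, 1)) := by
  rw [D.conj_char]; congr 1

theorem not_conj_c : ¬ IsConj (D.f (1, 1, 1)) (D.f (2, 2, 2)) := by
  rw [D.isConj_iff_sg (by decide)]; decide

theorem sum_cc [Fintype (IrrCharacter G)] :
    ∑ χ : IrrCharacter G, (χ : G → ℂ) (D.f (1, 1, 1)) * (χ : G → ℂ) (D.f (2, 2, 2)) = 27 := by
  have h := column_orthogonality_of_isConj (IsConj.refl (D.f (1, 1, 1)))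
  rw [cen_c D] at h
  push_cast at h
  rw [← h]
  exact Finset.sum_congr rfl fun χ _ => by rw [conj_c]

theorem sum_cc1 [Fintype (IrrCharacter G)] :
    ∑ χ : IrrCharacter G, (χ : G → ℂ) (D.f (1, 1, 1)) * (χ : G → ℂ) (D.f (1, 1, 1)) = 0 := by
  have h := column_orthogonality_of_not_isConj (not_conj_c D)
  rw [← h]
  exact Finset.sum_congr rfl fun χ _ => by rw [conj_c']

theorem sum_cc2 [Fintype (IrrCharacter G)] :
    ∑ χ : IrrCharacter G, (χ : G → ℂ) (D.f (2, 2, 2)) * (χ : G → ℂ) (D.f (2, 2, 2)) = 0 := by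
  have h := column_orthogonality_of_not_isConj (fun h => (not_conj_c D) h.symm)
  rw [← h]
  exact Finset.sum_congr rfl fun χ _ => by rw [conj_c]

theorem om_sq' : (1 + 2 * om) ^ 2 = -3 := by linear_combination 4 * om_rel

/-- the exceptional pair -/
theorem exists_theta [Fintype (IrrCharacter G)] : ∃ Θ Θ' : IrrCharacter G, Θ ≠ Θ' ∧ (∀ g, (Θ' : G → ℂ) g = conj ((Θ : G → ℂ) g)) ∧
    (∀ χ : IrrCharacter G, χ ≠ Θ → χ ≠ Θ' → (χ : G → ℂ) (D.f (1, 1, 1)) = (χ : G → ℂ) (D.f (2, 2, 2))) ∧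
    (∃ m0 m1 m2 m3 : ℕ, ((m2 : ℤ) - m3) ^ 2 = 1 ∧
      (Θ : G → ℂ) (D.f (1, 1, 1)) - (Θ : G → ℂ) (D.f (2, 2, 2)) = -3 * (1 + 2 * om) * ((m2 : ℤ) - m3 : ℤ) ∧
      ∑ v : A3, (Θ : G → ℂ) (D.f v) * e3 (-(dot3 (0, 0, 0) v)) = 27 * m0 ∧
      ∑ v : A3, (Θ : G → ℂ) (D.f v) * e3 (-(dot3 (0, 1, 1) v)) = 27 * m1 ∧
      ∑ v : A3, (Θ : G → ℂ) (D.f v) * e3 (-(dot3 (1, 1, 1) v)) = 27 * m2 ∧
      ∑ v : A3, (Θ : G → ℂ) (D.f v) * e3 (-(dot3 (2, 2, 2) v)) = 27 * m3) := by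
  classical
  choose n hn m0 m1 m2 m3 hnm h0 h1 h2 h3 using exists_n D
  have hom : (1 + 2 * om) ≠ 0 := by
    intro h
    have := om_sq'
    rw [h] at this
    norm_num at this
  have hsum : ∑ χ : IrrCharacter G, (n χ) ^ 2 = 2 := by
    have h : ∑ χ : IrrCharacter G, (((χ : G → ℂ) (D.f (1, 1, 1)) - (χ : G → ℂ) (D.f (2, 2, 2))) ^ 2) = -54 := by
      have e : ∀ χ : IrrCharacter G, (((χ : G → ℂ) (D.f (1, 1, 1)) - (χ : G → ℂ) (D.f (2, 2, 2))) ^ 2) =
          (χ : G → ℂ) (D.f (1, 1, 1)) * (χ : G → ℂ) (D.f (1, 1, 1)) +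
          (χ : G → ℂ) (D.f (2, 2, 2)) * (χ : G → ℂ) (D.f (2, 2, 2)) -
          2 * ((χ : G → ℂ) (D.f (1, 1, 1)) * (χ : G → ℂ) (D.f (2, 2, 2))) := fun χ => by ring
      rw [Finset.sum_congr rfl fun χ _ => e χ, Finset.sum_sub_distrib, Finset.sum_add_distrib, ← Finset.mul_sum,
        sum_cc1 D, sum_cc2 D, sum_cc D]
      norm_num
    have h' : ∑ χ : IrrCharacter G, (-27 : ℂ) * ((n χ) ^ 2 : ℤ) = -54 := by
      rw [← h]
      refine Finset.sum_congr rfl fun χ _ => ?_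
      rw [hn χ]
      push_cast
      linear_combination (-9) * (n χ : ℂ) ^ 2 * om_sq'
    rw [← Finset.mul_sum, ← Int.cast_sum] at h'
    have h'' : ((∑ χ : IrrCharacter G, (n χ) ^ 2 : ℤ) : ℂ) = ((2 : ℤ) : ℂ) := by
      push_cast at h' ⊢
      linear_combination h' / (-27)
    exact_mod_cast h''
  obtain ⟨Θ, hΘ⟩ : ∃ Θ : IrrCharacter G, n Θ ≠ 0 := by
    by_contra hcon
    push Not at hcon
    rw [Finset.sum_eq_zero (fun χ _ => by rw [hcon χ]; norm_num)] at hsum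
    norm_num at hsum
  have := Fintype.ofFinite G
  let Θ' : IrrCharacter G := ⟨fun g => conj ((Θ : G → ℂ) g), isIrrCharacter_conj Θ.2⟩
  have hΘ' : ∀ g, (Θ' : G → ℂ) g = conj ((Θ : G → ℂ) g) := fun g => rfl
  have hnn : n Θ' = - n Θ := by
    have e := hn Θ'
    rw [hΘ', hΘ', conj_c D, conj_c' D] at e
    have e' := hn Θ
    have : ((-3 : ℂ) * (1 + 2 * om)) * (((n Θ' : ℤ) : ℂ) + n Θ) = 0 := by linear_combination - e - e'
    rcases mul_eq_zero.1 this with h | h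
    · exact absurd (mul_eq_zero.1 h) (by rintro (h | h); norm_num at h; exact hom h)
    · have : (n Θ' + n Θ : ℤ) = 0 := by exact_mod_cast h
      linarith
  have hne : Θ ≠ Θ' := by
    intro h
    rw [← h] at hnn
    exact hΘ (by linarith)
  have hsplit : (n Θ) ^ 2 + ((n Θ') ^ 2 + ∑ χ ∈ (Finset.univ.erase Θ).erase Θ', (n χ) ^ 2) = 2 := by
    have e1 := Finset.add_sum_erase (Finset.univ.erase Θ) (fun χ => (n χ) ^ 2)
      (Finset.mem_erase.2 ⟨hne.symm, Finset.mem_univ Θ'⟩)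
    have e2 := Finset.add_sum_erase Finset.univ (fun χ => (n χ) ^ 2) (Finset.mem_univ Θ)
    beta_reduce at e1 e2
    rw [e1, e2]
    exact hsum
  have hpos : 1 ≤ (n Θ) ^ 2 := by
    have := sq_nonneg (n Θ)
    have : (n Θ) ^ 2 ≠ 0 := pow_ne_zero 2 hΘ
    omega
  have hnonneg : 0 ≤ ∑ χ ∈ (Finset.univ.erase Θ).erase Θ', (n χ) ^ 2 :=
    Finset.sum_nonneg fun χ _ => sq_nonneg _
  have hn2 : (n Θ') ^ 2 = (n Θ) ^ 2 := by rw [hnn]; ring
  rw [hn2] at hsplit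
  have h1' : (n Θ) ^ 2 = 1 := by omega
  have h2' : ∑ χ ∈ (Finset.univ.erase Θ).erase Θ', (n χ) ^ 2 = 0 := by omega
  refine ⟨Θ, Θ', hne, hΘ', ?_, m0 Θ, m1 Θ, m2 Θ, m3 Θ, ?_, ?_, h0 Θ, h1 Θ, h2 Θ, h3 Θ⟩
  · intro χ hχ hχ'
    have h4 := (Finset.sum_eq_zero_iff_of_nonneg (fun χ _ => sq_nonneg (n χ))).1 h2' χ (by simp [hχ, hχ'])
    have h5 : n χ = 0 := by simpa using h4
    have h6 := hn χ
    rw [h5] at h6
    push_cast at h6
    linear_combination h6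
  · rw [← hnm]; exact h1'
  · rw [← hnm]; exact hn Θ

theorem const_eq [Fintype (IrrCharacter G)] {Θ Θ' : IrrCharacter G} (hne : Θ ≠ Θ')
    (hconj : ∀ g, (Θ' : G → ℂ) g = conj ((Θ : G → ℂ) g))
    (hoff : ∀ χ : IrrCharacter G, χ ≠ Θ → χ ≠ Θ' → (χ : G → ℂ) (D.f (1, 1, 1)) = (χ : G → ℂ) (D.f (2, 2, 2)))
    (u : A3) (hu : u ≠ 0) (hk : ∃ k, sg k u = -u) (hc1 : ¬ ∃ k, sg k (-(2, 2, 2)) = u) (hc2 : ¬ ∃ k, sg k (-(1, 1, 1)) = u)
    (N1 N0 c : ℕ)
    (h1 : Nat.card {p : A3 × A3 // (∃ i, sg i u = p.1) ∧ (∃ i, sg i (1, 1, 1) = p.2) ∧ p.1 + p.2 = (2, 2, 2)} = N1)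
    (h0 : Nat.card {p : A3 × A3 // (∃ i, sg i u = p.1) ∧ (∃ i, sg i (1, 1, 1) = p.2) ∧ p.1 + p.2 = (1, 1, 1)} = N0)
    (hc : Nat.card (Subgroup.centralizer ({D.f u} : Set G)) = c) :
    (Nat.card G : ℂ) * (Θ : G → ℂ) (D.f u) * ((Θ : G → ℂ) (D.f (1, 1, 1)) - (Θ : G → ℂ) (D.f (2, 2, 2))) ^ 2 =
      ((N1 : ℂ) - N0) * c * 27 * (Θ : G → ℂ) 1 := by
  classical
  have e1 := class_const (D.f u) (D.f (1, 1, 1)) (D.f (2, 2, 2))
  have e0 := class_const (D.f u) (D.f (1, 1, 1)) (D.f (1, 1, 1))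
  rw [D.card_triples hu (by decide) (by decide) (fun h => hc1 h.1), h1, hc, cen_c D] at e1
  rw [D.card_triples hu (by decide) (by decide) (fun h => hc2 h.1), h0, hc, cen_c D] at e0
  have ed : (Nat.card G : ℂ) * ∑ χ : IrrCharacter G, (χ : G → ℂ) (D.f u) * (χ : G → ℂ) (D.f (1, 1, 1)) *
      ((χ : G → ℂ) (D.f (1, 1, 1)) - (χ : G → ℂ) (D.f (2, 2, 2))) / (χ : G → ℂ) 1 = ((N1 : ℂ) - N0) * c * 27 := by
    have : ∑ χ : IrrCharacter G, (χ : G → ℂ) (D.f u) * (χ : G → ℂ) (D.f (1, 1, 1)) *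
        ((χ : G → ℂ) (D.f (1, 1, 1)) - (χ : G → ℂ) (D.f (2, 2, 2))) / (χ : G → ℂ) 1 =
        ∑ χ : IrrCharacter G, (χ : G → ℂ) (D.f u) * (χ : G → ℂ) (D.f (1, 1, 1)) * conj ((χ : G → ℂ) (D.f (2, 2, 2))) / (χ : G → ℂ) 1 -
        ∑ χ : IrrCharacter G, (χ : G → ℂ) (D.f u) * (χ : G → ℂ) (D.f (1, 1, 1)) * conj ((χ : G → ℂ) (D.f (1, 1, 1))) / (χ : G → ℂ) 1 := by
      rw [← Finset.sum_sub_distrib]
      refine Finset.sum_congr rfl fun χ _ => ?_
      rw [conj_c D, conj_c' D]; ring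
    rw [this, mul_sub, e1, e0]
    push_cast
    ring
  have hsum : ∑ χ : IrrCharacter G, (χ : G → ℂ) (D.f u) * (χ : G → ℂ) (D.f (1, 1, 1)) *
      ((χ : G → ℂ) (D.f (1, 1, 1)) - (χ : G → ℂ) (D.f (2, 2, 2))) / (χ : G → ℂ) 1 =
      ∑ χ ∈ {Θ, Θ'}, (χ : G → ℂ) (D.f u) * (χ : G → ℂ) (D.f (1, 1, 1)) *
      ((χ : G → ℂ) (D.f (1, 1, 1)) - (χ : G → ℂ) (D.f (2, 2, 2))) / (χ : G → ℂ) 1 := by
    symm
    apply Finset.sum_subset (Finset.subset_univ _)
    intro χ _ hχ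
    simp only [Finset.mem_insert, Finset.mem_singleton, not_or] at hχ
    rw [hoff χ hχ.1 hχ.2, sub_self, mul_zero, zero_div]
  rw [hsum, Finset.sum_pair hne, hconj, hconj, hconj, hconj, conj_c D, conj_c' D, D.conj_char] at ed
  obtain ⟨k, hk⟩ := hk
  obtain ⟨d, hd⟩ := exists_nat_degree (irr_isCharacter Θ)
  have hd0 : (d : ℂ) ≠ 0 := by rw [← hd]; exact irr_one_ne_zero Θ.2
  rw [← hk, D.char_sg, hd, Complex.conj_natCast] at ed
  rw [hd]
  field_simp at ed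
  linear_combination ed

omit D in
theorem norm_bound {G : Type*} [Group G] [Finite G] [Fintype (IrrCharacter G)] {Θ Θ' : IrrCharacter G} (hne : Θ ≠ Θ')
    (hconj : ∀ g, (Θ' : G → ℂ) g = conj ((Θ : G → ℂ) g)) (h1 : Θ ≠ oneIrr G) (h1' : Θ' ≠ oneIrr G) (g : G) :
    1 + 2 * Complex.normSq ((Θ : G → ℂ) g) ≤ (Nat.card (Subgroup.centralizer ({g} : Set G)) : ℝ) := by
  classical
  have h := column_orthogonality_of_isConj (IsConj.refl g)
  have hs : ∑ χ : IrrCharacter G, Complex.normSq ((χ : G → ℂ) g) = (Nat.card (Subgroup.centralizer ({g} : Set G)) : ℝ) := by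
    have : ((∑ χ : IrrCharacter G, Complex.normSq ((χ : G → ℂ) g) : ℝ) : ℂ) =
        ((Nat.card (Subgroup.centralizer ({g} : Set G)) : ℝ) : ℂ) := by
      rw [Complex.ofReal_natCast, ← h, Complex.ofReal_sum]
      exact Finset.sum_congr rfl fun χ _ => (Complex.mul_conj _).symm
    exact_mod_cast this
  rw [← hs]
  have hle : ∑ χ ∈ ({oneIrr G, Θ, Θ'} : Finset (IrrCharacter G)), Complex.normSq ((χ : G → ℂ) g) ≤
      ∑ χ : IrrCharacter G, Complex.normSq ((χ : G → ℂ) g) :=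
    Finset.sum_le_sum_of_subset_of_nonneg (Finset.subset_univ _) (fun χ _ _ => Complex.normSq_nonneg _)
  refine le_trans (le_of_eq ?_) hle
  rw [Finset.sum_insert, Finset.sum_pair hne, hconj, Complex.normSq_conj, oneIrr_apply, Complex.normSq_one]
  · ring
  · simp only [Finset.mem_insert, Finset.mem_singleton, not_or]
    exact ⟨h1.symm, h1'.symm⟩

include D in
/-- The order of `G` is 108. -/
theorem card_G : Nat.card G = 108 := by
  classical
  have := Fintype.ofFinite (IrrCharacter G)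
  obtain ⟨Θ, Θ', hne, hconj, hoff, m0, m1, m2, m3, hn1, hΔ, h0, h1, h2, h3⟩ := exists_theta D
  have hF : ∀ k v, (fun v => (Θ : G → ℂ) (D.f v)) (sg k v) = (fun v => (Θ : G → ℂ) (D.f v)) v :=
    fun k v => D.char_sg Θ k v
  rw [sum_000 hF] at h0
  rw [sum_011 hF] at h1
  rw [sum_111 hF] at h2
  rw [sum_222 hF] at h3
  have hΔ2 : ((Θ : G → ℂ) (D.f (1, 1, 1)) - (Θ : G → ℂ) (D.f (2, 2, 2))) ^ 2 = -27 := by
    rw [hΔ]
    have : (((m2 : ℤ) - m3 : ℤ) : ℂ) ^ 2 = 1 := by exact_mod_cast hn1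
    linear_combination 9 * (1 + 2 * om) ^ 2 * this + 9 * om_sq'
  obtain ⟨d, hd⟩ := exists_nat_degree (irr_isCharacter Θ)
  have hd0 : (d : ℂ) ≠ 0 := by rw [← hd]; exact irr_one_ne_zero Θ.2
  have hdpos : 0 < d := by
    rcases Nat.eq_zero_or_pos d with h | h
    · rw [h] at hd0; simp at hd0
    · exact h
  have hg : (Nat.card G : ℂ) ≠ 0 := by exact_mod_cast Nat.card_pos.ne'
  have a1 := const_eq D hne hconj hoff (1, 0, 0) (by decide) (by decide) (by decide) (by decide) 1 0 54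
    (by rw [Nat.card_eq_fintype_card]; decide +kernel) (by rw [Nat.card_eq_fintype_card]; decide +kernel) (cen_a1 D)
  have a2 := const_eq D hne hconj hoff (0, 1, 0) (by decide) (by decide) (by decide) (by decide) 1 0 54
    (by rw [Nat.card_eq_fintype_card]; decide +kernel) (by rw [Nat.card_eq_fintype_card]; decide +kernel) (cen_a2 D)
  have a3 := const_eq D hne hconj hoff (0, 0, 1) (by decide) (by decide) (by decide) (by decide) 1 0 54
    (by rw [Nat.card_eq_fintype_card]; decide +kernel) (by rw [Nat.card_eq_fintype_card]; decide +kernel) (cen_a3 D)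
  have b1 := const_eq D hne hconj hoff (0, 1, 1) (by decide) (by decide) (by decide) (by decide) 0 1 27
    (by rw [Nat.card_eq_fintype_card]; decide +kernel) (by rw [Nat.card_eq_fintype_card]; decide +kernel) (cen_b1 D)
  have b2 := const_eq D hne hconj hoff (1, 0, 1) (by decide) (by decide) (by decide) (by decide) 0 1 27
    (by rw [Nat.card_eq_fintype_card]; decide +kernel) (by rw [Nat.card_eq_fintype_card]; decide +kernel) (cen_b2 D)
  have b3 := const_eq D hne hconj hoff (1, 1, 0) (by decide) (by decide) (by decide) (by decide) 0 1 27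
    (by rw [Nat.card_eq_fintype_card]; decide +kernel) (by rw [Nat.card_eq_fintype_card]; decide +kernel) (cen_b3 D)
  rw [hΔ2, hd] at a1 a2 a3 b1 b2 b3
  set g : ℂ := (Nat.card G : ℂ) with hgdef
  set M : ℂ := 27 * d / g with hM
  have hMg : M * g = 27 * d := by rw [hM]; field_simp
  have hA : ∀ x : ℂ, g * x * -27 = ((1 : ℕ) - (0 : ℕ) : ℂ) * (54 : ℕ) * 27 * d → x = -2 * M := by
    intro x hx
    have : g * (x + 2 * M) = 0 := by push_cast at hx; linear_combination hx / (-27) + 2 * hMg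
    rcases mul_eq_zero.1 this with h | h
    · exact absurd h hg
    · linear_combination h
  have hB : ∀ x : ℂ, g * x * -27 = ((0 : ℕ) - (1 : ℕ) : ℂ) * (27 : ℕ) * 27 * d → x = M := by
    intro x hx
    have : g * (x - M) = 0 := by push_cast at hx; linear_combination hx / (-27) - hMg
    rcases mul_eq_zero.1 this with h | h
    · exact absurd h hg
    · linear_combination h
  replace a1 := hA _ a1
  replace a2 := hA _ a2
  replace a3 := hA _ a3
  replace b1 := hB _ b1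
  replace b2 := hB _ b2
  replace b3 := hB _ b3
  have hz : D.f (0, 0, 0) = 1 := D.f_zero
  simp only [hz, hd, a1, a2, a3, b1, b2, b3] at h0 h1 h2 h3
  set C := (Θ : G → ℂ) (D.f (1, 1, 1)) with hC
  set C' := (Θ : G → ℂ) (D.f (2, 2, 2)) with hC'
  set a : ℂ := C + C' with ha
  have e0 : (27 : ℂ) * m0 = d + 4 * a := by rw [ha]; linear_combination - h0
  have e1 : (27 : ℂ) * m1 = d - 3 * M + a := by rw [ha]; linear_combination - h1
  have e23 : (27 : ℂ) * (m2 + m3) = 2 * d + 18 * M - a := by rw [ha]; linear_combination - h2 - h3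
  clear h0 h1 h2 h3
  have hMc : M = (((m2 + m3 - 2 * m0) - 3 * (m1 - m0) : ℤ) : ℂ) := by
    push_cast
    linear_combination (1 / 27) * e1 * 3 + (-1 / 27) * e23 + (-1 / 27) * e0
  have hac : a = ((-6 * (m1 - m0) - (m2 + m3 - 2 * m0) : ℤ) : ℂ) := by
    push_cast
    linear_combination (6 / 27) * e1 + (1 / 27) * e23 + (-8 / 27) * e0
  obtain ⟨X, hX⟩ : ∃ X : ℤ, X = m1 - m0 := ⟨_, rfl⟩
  obtain ⟨Y, hY⟩ : ∃ Y : ℤ, Y = m2 + m3 - 2 * m0 := ⟨_, rfl⟩
  obtain ⟨n, hn⟩ : ∃ n : ℤ, n = m2 - m3 := ⟨_, rfl⟩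
  rw [← hX, ← hY] at hMc hac
  rw [← hn] at hn1
  -- distinctness
  have h1 : Θ ≠ oneIrr G := by
    intro h
    rw [hC, hC', h] at hΔ2
    simp at hΔ2
  have h1' : Θ' ≠ oneIrr G := by
    intro h
    have k1 : C' = 1 := by rw [hC', ← conj_c D, ← hconj, h]; rfl
    have k2 : C = 1 := by rw [hC, ← conj_c' D, ← hconj, h]; rfl
    rw [k1, k2] at hΔ2
    simp at hΔ2
  have b3' := norm_bound hne hconj h1 h1' (D.f (1, 1, 1))
  rw [cen_c D] at b3'
  have hnC : Complex.normSq ((Θ : G → ℂ) (D.f (1, 1, 1))) = (((-6 * X - Y : ℤ) : ℝ) ^ 2 + 27) / 4 := by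
    have : ((Complex.normSq ((Θ : G → ℂ) (D.f (1, 1, 1))) : ℝ) : ℂ) = (((((-6 * X - Y : ℤ) : ℝ) ^ 2 + 27) / 4 : ℝ) : ℂ) := by
      rw [← Complex.mul_conj, conj_c D, ← hC, ← hC']
      push_cast
      push_cast at hac
      rw [← hac, ha]
      linear_combination (-1 / 4) * hΔ2
    exact_mod_cast this
  rw [hnC] at b3'
  have b1' := norm_bound hne hconj h1 h1' (D.f (1, 0, 0))
  rw [cen_a1 D] at b1'
  have hnA : Complex.normSq ((Θ : G → ℂ) (D.f (1, 0, 0))) = 4 * ((Y - 3 * X : ℤ) : ℝ) ^ 2 := by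
    have : ((Complex.normSq ((Θ : G → ℂ) (D.f (1, 0, 0))) : ℝ) : ℂ) = ((4 * ((Y - 3 * X : ℤ) : ℝ) ^ 2 : ℝ) : ℂ) := by
      rw [← Complex.mul_conj, D.conj_char]
      have : D.f (-(1, 0, 0)) = D.f (sg 1 (1, 0, 0)) := rfl
      rw [this, D.char_sg, a1, hMc]
      push_cast
      ring
    exact_mod_cast this
  rw [hnA] at b1'
  have b0' := norm_bound hne hconj h1 h1' (1 : G)
  have hcen1 : Nat.card (Subgroup.centralizer ({1} : Set G)) = Nat.card G := by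
    have : (Subgroup.centralizer ({1} : Set G)) = ⊤ := by
      rw [Subgroup.centralizer_eq_top_iff_subset]
      intro x hx
      rw [Set.mem_singleton_iff] at hx
      rw [hx]; exact Subgroup.one_mem _
    rw [this, Subgroup.card_top]
  rw [hcen1, hd, Complex.normSq_natCast] at b0'
  -- integers
  have z3 : (-6 * X - Y) ^ 2 ≤ 25 := by
    have : (((-6 * X - Y) ^ 2 : ℤ) : ℝ) ≤ ((25 : ℤ) : ℝ) := by push_cast at b3' ⊢; linarith
    exact_mod_cast this
  have z1 : (Y - 3 * X) ^ 2 ≤ 6 := by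
    have : (8 * (Y - 3 * X) ^ 2 : ℤ) ≤ 53 := by
      have : ((8 * (Y - 3 * X) ^ 2 : ℤ) : ℝ) ≤ ((53 : ℤ) : ℝ) := by push_cast at b1' ⊢; linarith
      exact_mod_cast this
    omega
  have z0 : 1 + 2 * (d * d) ≤ Nat.card G := by
    have : ((1 + 2 * (d * d) : ℕ) : ℝ) ≤ (Nat.card G : ℝ) := by push_cast; linarith
    exact_mod_cast this
  have zg : (Y - 3 * X) * (Nat.card G : ℤ) = 27 * d := by
    rw [hMc, hgdef] at hMg
    exact_mod_cast hMg
  have zd : (27 : ℤ) * m0 = d + 4 * (-6 * X - Y) := by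
    rw [hac] at e0
    exact_mod_cast e0
  have y1 : -5 ≤ -6 * X - Y ∧ -6 * X - Y ≤ 5 := by
    constructor <;> nlinarith
  have y2 : Y - 3 * X ≤ 2 := by nlinarith
  have y3 : 0 < Y - 3 * X := by
    by_contra hcon
    push Not at hcon
    have : (Y - 3 * X) * (Nat.card G : ℤ) ≤ 0 := mul_nonpos_of_nonpos_of_nonneg hcon (by positivity)
    have : (0 : ℤ) < 27 * d := by positivity
    omega
  have hnn : n = 1 ∨ n = -1 := by
    have : (n - 1) * (n + 1) = 0 := by linear_combination hn1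
    rcases mul_eq_zero.1 this with h | h
    · left; omega
    · right; omega
  have hX0 : X = 0 := by omega
  have hY1 : Y = 1 := by omega
  rw [hX0, hY1] at zg zd
  have zg' : Nat.card G = 27 * d := by
    have : (Nat.card G : ℤ) = 27 * d := by linarith
    exact_mod_cast this
  have hd13 : d ≤ 13 := by nlinarith
  have hd4 : d = 4 := by omega
  rw [zg', hd4]

end

end Cfsg.Agent.Tri3
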